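import Cfsg.Agent.H755.PQ.TorRows

/-!
# Sylow subgroups in twisted tori (helper363)

* `exists_orderOf_tX` : the twisted torus contains an element of order `r ^ v`, `r ^ v ∣ Φ_n(Q)`;
* `sylow_noBad` : for `NoBad degs n`: `T` abelian, `r ∤ |X : T|`, an element of order `r ^ v`, `|X| = r ^ (v a) m`, `r ∤ m`;
* `syl_E8` : type `E₈`, `n = 3, 6` (and all other `n` without bad primes).
-/

set_option autoImplicit false
set_option linter.unusedSectionVars false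
set_option linter.unusedVariables false

namespace Cfsg.Agent.H363.PQ

open CoxeterSystem Cfsg Cfsg.Lie Cfsg.Lie.ChevalleyDatum
open Cfsg.Agent.ChevalleyStructure Cfsg.Agent.ChevalleyStructure.Elts Cfsg.Agent.ChevalleyStructure.CoxeterGeom
  Cfsg.Agent.ChevalleyStructure.CoxeterGeomTypes Cfsg.Agent.ChevalleyStructure.NPerm
open Cfsg.Agent.Tits.Roots Cfsg.Agent.Tits.Core Cfsg.Agent.Nodes Cfsg.Agent.Nodes.Reps Cfsg.Agent.Nodes.BNOf
  Cfsg.Agent.Nodes.RGDChev Cfsg.Agent.Nodes.Bruhat Cfsg.Agent.Nodes.SubComb Cfsg.Agent.Nodes.Coroot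
open Cfsg.Agent.KFacts.RgdField Cfsg.Agent.KFacts.RgdChevCoord Cfsg.Agent.BpExc.TorCent Cfsg.Agent.BpExc.TorChev
open Cfsg.Agent.GpExc.Field Cfsg.Agent.BpExc.Tow Cfsg.Agent.BpExc.TowChev Cfsg.Agent.BpExc.Fr
  Cfsg.Agent.BpExc.LangFr Cfsg.Agent.LangThm Cfsg.Agent.BpExc Cfsg.Agent.H129.TorusChar Cfsg.Agent.H129.TorusMain
open Cfsg.Agent.H129.TorAct (cX_tau tau_mem exists_theta)
open Cfsg.Agent.H630.NH Cfsg.Agent.H630.Exc Cfsg.Agent.H755.PQ
open Cfsg.Agent.H130.WeylCk Cfsg.Agent.H130.PolyL Cfsg.Agent.H130.WeylTab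
open Polynomial (cyclotomic aeval natDegree_cyclotomic)

universe u v

section Main

variable {D : ChevalleyDatum} {l : ℕ} {M : CoxeterMatrix (Fin l)} (hp : IsType D l M) {k : Type u} [Field k]
  {W : Type*} [Group W] (cs : CoxeterSystem M W)

variable {p e : ℕ} [Fact p.Prime] [CharP k p] {σ : MulAut ↥(D.group k)} {g : (Fin l → ℤ) ≃+ (Fin l → ℤ)}
  {X : Type v} [Group X] {e0 : X →* ↥(D.group k)} {d : ℕ} (S : Setup hp cs p e σ g e0 d)
  {w : W} {R : Module.End ℤ (Fin l → ℤ)} {ε : ℤ}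

include S

open Polynomial in
/-- **An element of order `r ^ v` in a twisted torus.** -/
theorem exists_orderOf_tX [IsAlgClosed k] [Finite W] [Finite X] {hN : NSys M (TT D k) (nc hp k)}
    (hε : ε = 1 ∨ ε = -1) (h : ∀ x, theta hp cs w g x = ε • R x)
    {n' z : ↥(D.group k)} (hn' : Rp cs hN w n') (hz : n' = z⁻¹ * σ z) {r : ℕ} (hr : r.Prime) (hrp : r ≠ p)
    (hrd : ¬ r ∣ d) (hr2 : r ≠ 2) {Q : ℤ} (hQ : Q = ε * (p ^ e : ℕ)) {n N : ℕ} (hn : orderOf (Q : ZMod r) = n)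
    (hR : R ^ N = 1) (hnN : n ∣ N) (hrN : ¬ r ∣ N)
    (x : Fin l → ℤ) (y : (Fin l → ℤ) →ₗ[ℤ] ℤ) (c : ℤ)
    (hc : ¬ (r : ℤ) ∣ c) (hx : aeval R (cyclotomic n ℤ) x = 0)
    (hy : ∀ j < (cyclotomic n ℤ).natDegree, y ((R ^ j) x) =
      if j + 1 = (cyclotomic n ℤ).natDegree then c else 0)
    {v : ℕ} (hv : ((r ^ v : ℕ) : ℤ) ∣ (cyclotomic n ℤ).eval Q) : ∃ x' ∈ tX D k e0 z, orderOf x' = r ^ v := by
  classical
  have : Fact r.Prime := ⟨hr⟩
  obtain ⟨m, hm⟩ : ∃ m, m = r ^ v := ⟨_, rfl⟩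
  rw [← hm] at hv ⊢
  have hrZ := Nat.prime_iff_prime_int.1 hr
  have hpp : p.Prime := Fact.out
  have hcr : ¬ r ∣ p := fun h => hrp ((Nat.prime_dvd_prime_iff_eq hr hpp).1 h)
  have hQr : ¬ (r : ℤ) ∣ Q := by
    intro h2
    apply hcr
    have h3 : r ∣ Q.natAbs := Int.natCast_dvd.1 h2
    have h4 : Q.natAbs = p ^ e := by
      rw [hQ, Int.natAbs_mul]
      rcases hε with rfl | rfl <;> simp
    rw [h4] at h3
    exact hr.dvd_of_dvd_pow h3
  have hn0 : 0 < n := by rw [← hn]; exact ord_pos hr hQr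
  have hrk : (r : k) ≠ 0 := by
    rw [Ne, CharP.cast_eq_zero_iff k p]
    intro h
    exact hrp ((Nat.prime_dvd_prime_iff_eq hpp hr).1 h).symm
  have hmk : (m : k) ≠ 0 := by rw [hm, Nat.cast_pow]; exact pow_ne_zero _ hrk
  have hm0 : 0 < m := by rw [hm]; exact pow_pos hr.pos _
  have hmQn : (m : ℤ) ∣ Q ^ N - 1 := by
    have h1 : (cyclotomic n ℤ) ∣ Polynomial.X ^ n - 1 := cyclotomic.dvd_X_pow_sub_one n ℤ
    have h2 := eval_dvd (x := Q) h1
    rw [eval_sub, eval_pow, eval_X, eval_one] at h2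
    obtain ⟨N', rfl⟩ := hnN
    have h3 : Q ^ n - 1 ∣ Q ^ (n * N') - 1 := by
      rw [pow_mul]
      have := sub_dvd_pow_sub_pow (Q ^ n) 1 N'
      rwa [one_pow] at this
    exact (hv.trans h2).trans h3
  have hmq : (m : ℤ) ∣ ((p ^ e : ℕ) : ℤ) ^ (2 * N) - 1 := by
    have h1 : ((p ^ e : ℕ) : ℤ) ^ (2 * N) = Q ^ (2 * N) := by rw [hQ, mul_pow, eps_pow_two hε, one_mul]
    rw [h1]
    exact hmQn.trans ⟨Q ^ N + 1, by ring⟩
  have hθ : ∀ x, (theta hp cs w g)^[2 * N] x = x := theta_powR hp cs hε h hR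
  obtain ⟨B, d', hd', hB⟩ := S.inv
  obtain ⟨ζ, hζ, hz0, hchar⟩ := exists_char hp hB hd' (q := p ^ e) (n := 2 * N) hθ hmk hmq
  obtain ⟨t, ht, h1, h2, h3⟩ := hchar y.toAddMonoidHom
  obtain ⟨x', hx'⟩ := S.exists_of_tau hp cs hz ((tau_iff hp cs S.lf S.frob S.fr hn' ht).2 h1) hr hrd ⟨v, by
    rw [← hm]; exact h2⟩
  have hPm : (cyclotomic n ℤ).Monic := cyclotomic.monic n ℤ
  have hPd : 0 < (cyclotomic n ℤ).natDegree := by
    rw [natDegree_cyclotomic]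
    exact Nat.totient_pos.2 hn0
  have hxm : x' ^ m = 1 := by
    apply S.inj
    have h4 := S.conj_pow_eq hp cs (y := x') (z := z) m
    rw [hx', h2] at h4
    rw [map_one]
    have h5 : e0 (x' ^ m) = z * (z⁻¹ * e0 (x' ^ m) * z) * z⁻¹ := by group
    rw [h5, ← h4]; group
  refine ⟨x', by rw [mem_tX, hx']; exact ht, ?_⟩
  obtain ⟨u, hu⟩ : ∃ u : ℤ, Lq y.toAddMonoidHom (theta hp cs w g) (p ^ e) (2 * N)
      (aeval R (cyclotomic n ℤ /ₘ (Polynomial.X - C Q)) x) = ((Q ^ N + 1) * (N * Q ^ N * c)) + m * u := by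
    set L : (Fin l → ℤ) →+ ℤ := y.toAddMonoidHom with hL
    set zi := aeval R (cyclotomic n ℤ /ₘ (Polynomial.X - C Q)) x with hzi
    have hLz : L zi = c := by
      exact H130.Cok.functional hPm hPd Q y x _ fun j hj => hy j hj
    have h3 : ∀ j : ℕ, ∃ u : ℤ, L ((R ^ j) zi) = Q ^ j * L zi + m * u := by
      intro j
      obtain ⟨u, hu⟩ := exists_eig hv hx j
      exact ⟨L u, by rw [hzi, hu, map_add, map_zsmul, map_zsmul, smul_eq_mul, smul_eq_mul]⟩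
    choose u hu using h3
    refine ⟨(Q ^ N + 1) * ∑ j ∈ Finset.range N, Q ^ (N - j) * u j, ?_⟩
    rw [Lq_eqR hp cs hε h hR _ hQ]
    have h4 : ∀ j ∈ Finset.range N, Q ^ (N - j) * L ((R ^ j) zi) =
        Q ^ N * L zi + m * (Q ^ (N - j) * u j) := by
      intro j hj
      rw [Finset.mem_range] at hj
      rw [hu j, mul_add, ← mul_assoc, ← pow_add, Nat.sub_add_cancel hj.le]
      ring
    rw [Finset.sum_congr rfl h4, Finset.sum_add_distrib, Finset.sum_const, Finset.card_range, ← Finset.mul_sum, hLz,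
      nsmul_eq_mul]
    ring
  have hcop : IsCoprime (m : ℤ) ((Q ^ N + 1) * (N * Q ^ N * c)) := by
    rw [hm, Nat.cast_pow]
    apply IsCoprime.pow_left
    rw [hrZ.irreducible.coprime_iff_not_dvd]
    intro h
    rcases hrZ.dvd_mul.1 h with h | h
    · have h3 : (r : ℤ) ∣ Q ^ N - 1 := (dvd_pow_sub_one_iff N).2 (by rw [hn]; exact hnN)
      have h4 := dvd_sub h h3
      have h5 : Q ^ N + 1 - (Q ^ N - 1) = 2 := by ring
      rw [h5] at h4
      have h6 : r ∣ 2 := by exact_mod_cast h4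
      exact hr2 ((Nat.prime_dvd_prime_iff_eq hr Nat.prime_two).1 h6)
    · rcases hrZ.dvd_mul.1 h with h | h
      · rcases hrZ.dvd_mul.1 h with h | h
        · exact hrN (Int.natCast_dvd_natCast.1 h)
        · exact hQr (hrZ.dvd_of_dvd_pow h)
      · exact hc h
  apply Nat.dvd_antisymm (orderOf_dvd_of_pow_eq_one hxm)
  have h6 : t ^ orderOf x' = 1 := by
    have h4 := S.conj_pow_eq hp cs (y := x') (z := z) (orderOf x')
    rw [hx', pow_orderOf_eq_one, map_one] at h4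
    rw [h4]
    group
  have h7 := congrArg (fun t => cX hp t (aeval R (cyclotomic n ℤ /ₘ (Polynomial.X - C Q)) x)) h6
  rw [cX_pow hp ht, cX_one, h3, ← zpow_natCast, ← zpow_mul, hζ.zpow_eq_one_iff_dvd, hu] at h7
  have h8 : (m : ℤ) ∣ ((Q ^ N + 1) * (N * Q ^ N * c)) * (orderOf x' : ℤ) := by
    have h9 := dvd_sub h7 (dvd_mul_right (m : ℤ) (u * (orderOf x' : ℤ)))
    have h10 : ((Q ^ N + 1) * (N * Q ^ N * c) + m * u) * (orderOf x' : ℤ) - m * (u * (orderOf x' : ℤ)) =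
      ((Q ^ N + 1) * (N * Q ^ N * c)) * (orderOf x' : ℤ) := by ring
    rwa [h10] at h9
  exact Int.natCast_dvd_natCast.1 (hcop.dvd_of_dvd_mul_left h8)

end Main

section NB

variable {D : ChevalleyDatum} {l : ℕ} {M : CoxeterMatrix (Fin l)} (hp : IsType D l M)
  {W : Type*} [Group W] (cs : CoxeterSystem M W)

variable {k : Type u} [Field k] {p e : ℕ} [hpF : Fact p.Prime] [CharP k p] {σ : MulAut ↥(D.group k)}
  {g : (Fin l → ℤ) ≃+ (Fin l → ℤ)}
  {X : Type v} [Group X] {e0 : X →* ↥(D.group k)} {d : ℕ} (S : Setup hp cs p e σ g e0 d)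

include S

/-- **The Sylow `r`-subgroup for `NoBad degs n`.** -/
theorem sylow_noBad [IsAlgClosed k] [Finite W] [Finite X] {ε : ℤ} (hε : ε = 1 ∨ ε = -1)
    {Al : List (List ℤ)} (hA : MatList (cartanOf D l) Al) (hT : ∀ w1, HasTor hp cs g ε w1) {Q : ℤ}
    (hQ : Q = ε * (p ^ e : ℕ)) {n : ℕ} (hn : 0 < n ∧ n ∈ H130.PolyL.idx) {degs : List ℕ} (hb : NoBad degs n)
    (H : HasF Al l degs n) {N' g' : ℕ}
    (hcard : g' * Nat.card X = (p ^ e) ^ N' * ((degs.map (fun i => Q ^ i - 1)).prod).natAbs)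
    {r : ℕ} (hr : r.Prime) (hr2 : r ≠ 2) (hrp : r ≠ p)
    (hrd : ¬ r ∣ d) (hrn : orderOf (Q : ZMod r) = n) {v : ℕ} {b : ℤ}
    (hv : (cyclotomic n ℤ).eval Q = ((r ^ v : ℕ) : ℤ) * b) (hvb : ¬ (r : ℤ) ∣ b) :
    ∃ T : Subgroup X, IsMulCommutative T ∧ ¬ r ∣ T.index ∧ (∃ x ∈ T, orderOf x = r ^ v) ∧
      ∃ C : ℤ, ((degs.map (fun i => Q ^ i - 1)).prod) =
        (cyclotomic n ℤ).eval Q ^ (degs.filter (fun i => n ∣ i)).length * C ∧ ¬ (r : ℤ) ∣ C := by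
  obtain ⟨word, j, c, xs, ys, hC, hc⟩ := H
  have hQr := not_dvd_Q (p := p) (e := e) Fact.out hr hrp hε hQ
  have hnr : n ∣ r - 1 := by rw [← hrn]; exact H630.Exc.ord_dvd hr hQr
  have key : ¬ (r : ℤ) ∣ c := by
    intro h8
    have h9 := h8.trans hc
    have h10 : (r : ℤ) ∣ (((degs.filter (fun i => n ∣ i)).prod : ℕ) : ℤ) := h9
    have h11 : r ∣ (degs.filter (fun i => n ∣ i)).prod := Int.natCast_dvd_natCast.1 h10
    obtain ⟨i, hi, hri⟩ := (Prime.dvd_prod_iff (Nat.prime_iff.1 hr)).1 h11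
    rw [List.mem_filter] at hi
    exact hb.not_dvd hr hr2 hnr i hi.1 (of_decide_eq_true hi.2) hri
  have hlen := length_ne hb.2.1
  obtain ⟨T, hTor⟩ := exists_isTor hp cs S (hT (cs.wordProd word ^ j))
  have hRn := rep_pow_eq_one hp cs hA word j n hC.1
  obtain ⟨x, y, hx, hy⟩ := cert_data hp cs hA hn.2 hC
  have hrn' : ¬ r ∣ n := by rw [← hrn]; exact not_dvd_ord hr hQr
  have hfs := exists_prod hr hQr degs (by rw [hrn]; exact hb.not_dvd hr hr2 hnr)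
  rw [hrn] at hfs
  have hi := IsTor.not_dvd_index hp cs hTor hε hr hrp hrd hr2 hQ hn.1 hrn hRn dvd_rfl hrn' x y c key hx hy hcard hfs
  have hTc := IsTor.isMulCommutative hp cs hTor
  obtain ⟨w, n', z, hw, hn', hz, rfl⟩ := hTor
  refine ⟨_, hTc, hi, ?_, hfs⟩
  exact exists_orderOf_tX hp cs S hε hw hn' hz hr hrp hrd hr2 hQ hrn hRn dvd_rfl hrn'
    (x ⟨0, Nat.pos_of_ne_zero hlen⟩) (y ⟨0, Nat.pos_of_ne_zero hlen⟩) c key (hx _)
    (fun j hj => by rw [hy _ _ j hj]; simp) ⟨b, hv⟩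

end NB

/-- **Type `E₈`**: for `n` without bad primes (`n = 3, 6, …`), `r` of order `n`, `r ^ v ∥ Φ_n(q)`: there is an
abelian subgroup `T` of index prime to `r` with an element of order `r ^ v`, and `|G| = r ^ (v a) m`, `r ∤ m`. -/
theorem syl_E8 (F : Type u) [Field F] [Fintype F] {n : ℕ}
    (hn : n ∈ [3, 5, 6, 7, 8, 9, 10, 12, 14, 15, 18, 20, 24, 30]) {r : ℕ} (hr : r.Prime) (hr2 : r ≠ 2)
    (hro : orderOf ((Fintype.card F : ℕ) : ZMod r) = n) {v : ℕ} {b : ℤ}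
    (hv : (cyclotomic n ℤ).eval ((Fintype.card F : ℕ) : ℤ) = ((r ^ v : ℕ) : ℤ) * b) (hvb : ¬ (r : ℤ) ∣ b) :
    ∃ T : Subgroup ↥(chevE8.group F), IsMulCommutative T ∧ ¬ r ∣ T.index ∧ (∃ x ∈ T, orderOf x = r ^ v) ∧
      ∃ m : ℕ, Nat.card ↥(chevE8.group F) =
        r ^ (v * (([2, 8, 12, 14, 18, 20, 24, 30].filter (fun i => n ∣ i)).length)) * m ∧ ¬ r ∣ m := by
  obtain ⟨k, _, _, f, p, hpp, hkp, e, hk, hka, he0, hcF⟩ := H378.TorFin.exists_closure F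
  have cs := CoxeterMatrix.E₈.toCoxeterSystem
  have hW := finite_W e8T cs
  have hcF' : Fintype.card F = p ^ e := by rw [← Nat.card_eq_fintype_card, hcF]
  have hd1 : Nat.gcd 1 (Nat.card F - 1) = 1 := Nat.gcd_one_left _
  have S := setup_untw e8T cs hk f he0 hcF' invC_E8 one_ne_zero
  rw [hd1] at S
  have hcard : 1 * Nat.card ↥(chevE8.group F) = (p ^ e) ^ 120 *
      (([2, 8, 12, 14, 18, 20, 24, 30].map (fun i => ((p ^ e : ℕ) : ℤ) ^ i - 1)).prod).natAbs := by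
    rw [natAbs_prod _ (pow_pos hpp.out.pos _), one_mul, S1065.result hcF']
    simp only [List.map_cons, List.map_nil, List.prod_cons, List.prod_nil, mul_one]
    ring
  have h1 : (1 : ℤ) = 1 ∨ (1 : ℤ) = -1 := Or.inl rfl
  have hn' : n ∈ [1, 2, 3, 4, 5, 6, 7, 8, 9, 10, 12, 14, 15, 18, 20, 24, 30] := by
    have : ∀ n ∈ [3, 5, 6, 7, 8, 9, 10, 12, 14, 15, 18, 20, 24, 30],
      n ∈ [1, 2, 3, 4, 5, 6, 7, 8, 9, 10, 12, 14, 15, 18, 20, 24, 30] := by decide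
    exact this n hn
  have hn0 : 0 < n := by
    have : ∀ n ∈ [3, 5, 6, 7, 8, 9, 10, 12, 14, 15, 18, 20, 24, 30], 0 < n := by decide
    exact this n hn
  have hrp : r ≠ p := by
    rintro rfl
    have : Fact r.Prime := ⟨hr⟩
    have h1 : ((Fintype.card F : ℕ) : ZMod r) = 0 := by
      rw [ZMod.natCast_eq_zero_iff, hcF']
      exact dvd_pow_self _ he0.ne'
    have h2 : orderOf ((Fintype.card F : ℕ) : ZMod r) = 0 := by
      rw [h1, orderOf_eq_zero_iff']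
      intro m hm
      rw [zero_pow hm.ne']
      exact zero_ne_one
    omega
  have hrd : ¬ r ∣ 1 := fun h => hr.one_lt.ne' (Nat.dvd_one.1 h)
  rw [hcF'] at hro hv
  obtain ⟨T, hTc, hi, hx, C, hC, hrC⟩ := sylow_noBad e8T cs S h1 lists_E8 (hasTor_E8 cs 1 h1) (one_mul _).symm
    (idx_E8 n hn') (noBad_E8 n hn) (hasF_E8 n hn') hcard hr hr2 hrp hrd (by rw [cast_ord]; exact hro) hv hvb
  refine ⟨T, hTc, hi, hx, (p ^ e) ^ 120 * (b.natAbs ^
    (([2, 8, 12, 14, 18, 20, 24, 30].filter (fun i => n ∣ i)).length) * C.natAbs), ?_, ?_⟩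
  · rw [← one_mul (Nat.card _), hcard, hC, hv, Int.natAbs_mul, Int.natAbs_pow, Int.natAbs_mul, Int.natAbs_natCast,
      mul_pow, ← pow_mul]
    ring
  · intro h
    rcases (Nat.Prime.dvd_mul hr).1 h with h | h
    · exact hrp ((Nat.prime_dvd_prime_iff_eq hr hpp.out).1 (hr.dvd_of_dvd_pow (hr.dvd_of_dvd_pow h)))
    · rcases (Nat.Prime.dvd_mul hr).1 h with h | h
      · exact hvb (Int.natCast_dvd.2 (hr.dvd_of_dvd_pow h))
      · exact hrC (Int.natCast_dvd.2 h)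

end Cfsg.Agent.H363.PQ
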